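import Cfsg.Agent.McLFus.Check
import Cfsg.Agent.McLFus.CentData

/-!
Kernel checks for the involution centraliser of the McLaughlin group.
-/

set_option autoImplicit false
set_option maxRecDepth 100000
set_option Elab.async false

namespace CfsgLib.McLFus

/-- An element of the second program. -/
def fN (i : ℕ) : ℕ := elts2.getD i 0

/-- An element of the program of the centraliser. -/
def dN (i : ℕ) : ℕ := eltsC.getD i 0

/-- Check of a program over two starting values. -/
def slpOk (el : List ℕ) (st : List (ℕ × ℕ)) (x y : ℕ) : Bool :=
  el.length == st.length + 2 && (el.getD 0 0 == x) && (el.getD 1 0 == y) &&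
  (List.range st.length).all fun k => decide ((st.getD k (0, 0)).1 < k + 2) &&
    decide ((st.getD k (0, 0)).2 < k + 2) &&
    el.getD (k + 2) 0 == mulN (el.getD (st.getD k (0, 0)).1 0) (el.getD (st.getD k (0, 0)).2 0)

/-- A spanning tree of an orbit. -/
def orbTreeOk : List (ℕ × ℕ × ℕ) → List ℕ → ℕ → Bool
  | [], _, _ => true
  | (g, p, q) :: r, gs, seen =>
    gs.elem g && seen.testBit p && !seen.testBit q && tabN (dN g) p == q && orbTreeOk r gs (seen ||| 1 <<< q)

/-- Check of a chain. -/
def levOkC : List (ℕ × List ℕ × List (ℕ × ℕ × ℕ)) → List ℕ → Bool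
  | [], _ => true
  | (x, gs, tr) :: rest, pre =>
    decide (x < 275) && (gs.all fun g => decide (g < eltsC.length) && pre.all fun q => tabN (dN g) q == q) &&
    orbTreeOk tr gs (1 <<< x) && levOkC rest (x :: pre)

/-- The number of possible images of the next point, given fixed points. -/
def nCand (g : ℕ) (r : ℕ) (pre : List ℕ) : ℕ :=
  ((List.range 275).filter fun t => okT g 2 r t pre pre).length

/-- The product of the numbers of possible images. -/
def candProd (g : ℕ) : List ℕ → List ℕ → ℕ
  | [], _ => 1
  | r :: rest, pre => nCand g r pre * candProd g rest (r :: pre)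

/-- The set of fixed points on one side of a pair. -/
def pairN (a b : ℕ) : ℕ := (pairSets.getD a []).getD b 0

/-- A permutation of the eight objects is induced. -/
def mapsOk (g : ℕ) (s : List ℕ) : Bool :=
  allLt 8 fun a => allLt 8 fun b => decide (s.getD a 0 < 8) && ((a == b) ||
    allLt 275 fun x => (pairN a b).testBit x == (pairN (s.getD a 0) (s.getD b 0)).testBit (tabN g x))

theorem chk_prog2 : slpOk elts2 steps2 pA pZ = true := by decide +kernel

theorem chk_ids : c1Id < elts2.length ∧ c2Id < elts2.length ∧ vId < elts2.length ∧ fixZ.all (fun x => decide (x < 275)) = true ∧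
    freePt < 275 := by decide +kernel

theorem chk_progC : slpOk eltsC stepsC (fN c1Id) (fN c2Id) = true := by decide +kernel

theorem chk_levC : levOkC levelsC [] = true ∧ (levelsC.map fun l => l.2.2.length + 1).prod = 40320 := by
  decide +kernel

theorem chk_commC : mulN (fN c1Id) (sN zPos) = mulN (sN zPos) (fN c1Id) ∧
    mulN (fN c2Id) (sN zPos) = mulN (sN zPos) (fN c2Id) ∧ mulN pT (sN zPos) = mulN (sN zPos) pT ∧
    mulN (fN vId) (fN vId) = sN zPos ∧ killed pT = true := by decide +kernel

theorem chk_ub : candProd (sN zPos) baseC [] = 80640 := by decide +kernel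

theorem chk_ptsC : ptsC = baseC.flatMap (orbN (sN zPos) 2) ∧ (baseC.all fun r => decide (r < 275)) = true := by
  decide +kernel

theorem chk_sepC : ordC.length = 275 ∧ (ordC.all fun k => decide (k < 275)) = true ∧
    incrN (ordC.map (sigN ptsC)) = true := by decide +kernel

theorem chk_inv : (allLt 128 fun i => mulN (sN i) (sN i) != idN || i == onePos ||
    (decide ((invTab.getD i (0, 0)).1 < 128) && decide (conjI.getD (invTab.getD i (0, 0)).2 0 < elts2.length) &&
      mulN (mulN (sN (invTab.getD i (0, 0)).1) (fN (conjI.getD (invTab.getD i (0, 0)).2 0))) (sN zPos) ==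
        mulN (mulN (sN i) (sN (invTab.getD i (0, 0)).1)) (fN (conjI.getD (invTab.getD i (0, 0)).2 0)))) = true := by
  decide +kernel

theorem chk_maps : mapsOk (fN c1Id) sigC1 = true ∧ mapsOk (fN c2Id) sigC2 = true := by decide +kernel

theorem chk_pairs : (allLt 8 fun a => allLt 8 fun b => allLt 8 fun c => allLt 8 fun d => (a == b) || (c == d) ||
    (pairN a b != pairN c d) || (a == c && b == d) || (a == d && b == c)) = true ∧
    (allLt 8 fun a => allLt 8 fun b => decide (pairN a b < 2 ^ 275)) = true := by decide +kernel

theorem chk_points : (fixZ.all fun x => allLt 275 fun y => (x == y) ||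
    (List.range 8).any fun a => (List.range 8).any fun b => a != b &&
      (pairN a b).testBit x != (pairN a b).testBit y) = true ∧
    (allLt 275 fun x => (tabN (sN zPos) x == x) == fixZ.elem x) = true := by decide +kernel

theorem chk_free : (allLt 275 fun y => y == freePt || y == tabN (sN zPos) freePt ||
    sigN fixZ y != sigN fixZ freePt) = true := by decide +kernel

theorem chk_extra : (kerExtra.all fun x => decide (x < 275) && allLt 275 fun y => y == x ||
    sigN (fixZ ++ [freePt, tabN (sN zPos) freePt]) y != sigN (fixZ ++ [freePt, tabN (sN zPos) freePt]) x) = true := by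
  decide +kernel

theorem chk_sepK : ordK.length = 275 ∧ (ordK.all fun k => decide (k < 275)) = true ∧
    incrN (ordK.map (sigN (fixZ ++ [freePt, tabN (sN zPos) freePt] ++ kerExtra))) = true := by decide +kernel

end CfsgLib.McLFus
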