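import Cfsg.Agent.McLFus.Main
import Cfsg.Agent.McLFus.CentCheck
import Cfsg.Prelude.Def_SporadicB

/-!
Involutions of the McLaughlin group: one class, centraliser a double cover of the alternating group of degree 8.
-/

set_option autoImplicit false
set_option maxRecDepth 100000

namespace CfsgLib.McLFus

open Cfsg CfsgLib.LeechOut CfsgLib.Leech Equiv MulAction
open scoped Pointwise

theorem slp_mem {el : List ℕ} {st : List (ℕ × ℕ)} {x y : ℕ} (h : slpOk el st x y = true) (H : Subgroup gP)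
    (hx : ∃ σ : gP, σ ∈ H ∧ Rep x (σ : Perm (Fin 275))) (hy : ∃ σ : gP, σ ∈ H ∧ Rep y (σ : Perm (Fin 275))) :
    ∀ i < el.length, ∃ σ : gP, σ ∈ H ∧ Rep (el.getD i 0) (σ : Perm (Fin 275)) := by
  simp only [slpOk, Bool.and_eq_true, beq_iff_eq, decide_eq_true_eq, List.all_eq_true, List.mem_range] at h
  obtain ⟨⟨⟨hlen, h0⟩, h1⟩, hs⟩ := h
  intro i
  induction i using Nat.strong_induction_on with
  | _ i ih =>
    intro hi
    rcases i with _ | _ | k
    · exact h0.symm ▸ hx
    · exact h1.symm ▸ hy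
    · obtain ⟨⟨ha, hb⟩, he⟩ := hs k (by omega)
      obtain ⟨s, hs1, hsr⟩ := ih _ (by omega) (show (st.getD k (0, 0)).1 < el.length by omega)
      obtain ⟨t, ht1, htr⟩ := ih _ (by omega) (show (st.getD k (0, 0)).2 < el.length by omega)
      exact ⟨s * t, mul_mem hs1 ht1, he ▸ rep_mul hsr htr⟩

theorem fN_ex {i : ℕ} (hi : i < elts2.length) : ∃ σ : gP, Rep (fN i) (σ : Perm (Fin 275)) := by
  obtain ⟨σ, -, h⟩ := slp_mem chk_prog2 ⊤ ⟨⟨_, McL.cert.el 0, rfl⟩, trivial, rep_el0⟩
    ⟨⟨_, McL.cert.el 2, rfl⟩, trivial, rep_el2⟩ i hi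
  exact ⟨σ, h⟩

/-- The involution. -/
noncomputable def zz : gP := se zIdx

/-- The first generator of the centraliser. -/
noncomputable def cA : gP := (fN_ex chk_ids.1).choose
/-- The second generator of the centraliser. -/
noncomputable def cB : gP := (fN_ex chk_ids.2.1).choose
/-- A square root of the involution. -/
noncomputable def cV : gP := (fN_ex chk_ids.2.2.1).choose

theorem rcA : Rep (fN c1Id) (cA : Perm (Fin 275)) := (fN_ex chk_ids.1).choose_spec
theorem rcB : Rep (fN c2Id) (cB : Perm (Fin 275)) := (fN_ex chk_ids.2.1).choose_spec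
theorem rcV : Rep (fN vId) (cV : Perm (Fin 275)) := (fN_ex chk_ids.2.2.1).choose_spec
theorem rzz : Rep (sN zPos) (zz : Perm (Fin 275)) := se_rep zIdx

theorem cV_sq : cV * cV = zz := eq_of_rep (rep_mul rcV rcV) rzz chk_commC.2.2.2.1

theorem zz_ne : zz ≠ 1 := fun h => by
  have e := rzz
  rw [h] at e
  refine chk_zu.2.2.2.2.2.2.1 (pk_eq (syl_pk _ chk_zu.2.2.1) (powN_pk idN 0) fun k => ?_)
  exact (e k).symm.trans (rep_id k)

theorem zz_sq : zz * zz = 1 := by
  have h : mulN (sN zPos) (sN zPos) = idN := by decide +kernel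
  exact eq_of_rep (rep_mul rzz rzz) rep_id h

theorem orderOf_zz : orderOf zz = 2 :=
  haveI : Fact (Nat.Prime 2) := ⟨Nat.prime_two⟩
  orderOf_eq_prime (by rw [sq, zz_sq]) zz_ne

/-! ### One class -/

theorem conj_zz {x : gP} (hx : orderOf x = 2) : IsConj zz x := by
  haveI : Fact (Nat.Prime 2) := ⟨Nat.prime_two⟩
  haveI : Finite gP := Finite.of_injective _ Subtype.val_injective
  have hS0 : Nat.card sylS = 2 ^ (Nat.card gP).factorization 2 := by
    rw [card_sylS, card_gP, show (898128000 : ℕ) = 2 ^ 7 * 7016625 by norm_num,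
      Nat.factorization_mul (by norm_num) (by norm_num), Finsupp.add_apply,
      Nat.Prime.factorization_pow (by norm_num), Finsupp.single_eq_same,
      Nat.factorization_eq_zero_of_not_dvd (by norm_num)]
  have hp : IsPGroup 2 (Subgroup.zpowers x) := IsPGroup.of_card (n := 1) (by rw [Nat.card_zpowers, hx, pow_one])
  obtain ⟨P, hP⟩ := hp.exists_le_sylow
  obtain ⟨g, hg⟩ := MulAction.exists_smul_eq gP P (Sylow.ofCard sylS hS0)
  have hm : MulAut.conj g x ∈ sylS := by
    have e : MulAut.conj g • (P : Subgroup gP) = sylS := congrArg (fun Q : Sylow 2 gP => (Q : Subgroup gP)) hg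
    rw [← e]
    exact Subgroup.smul_mem_pointwise_smul _ _ _ (hP (Subgroup.mem_zpowers x))
  obtain ⟨i, hi⟩ := mem_sylS hm
  have ho : orderOf (se i) = 2 := by rw [← hi, MulEquiv.orderOf_eq, hx]
  refine IsConj.trans ?_ (isConj_iff.2 ⟨g, by rw [← MulAut.conj_apply, hi]⟩ : IsConj x (se i)).symm
  have h := allLt_spec chk_inv i.isLt
  simp only [Bool.or_eq_true, Bool.and_eq_true, decide_eq_true_eq, beq_iff_eq, bne_iff_ne] at h
  rcases h with (h | h) | ⟨⟨hj, hc⟩, he⟩
  · exfalso
    refine h (pk_eq (mulN_pk _ _) (powN_pk idN 0) fun k => ?_)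
    have e : se i * se i = 1 := by rw [← sq, ← ho, pow_orderOf_eq_one]
    rw [← rep_mul (se_rep i) (se_rep i) k, ← Subgroup.coe_mul, e]
    exact rep_id k
  · exfalso
    rw [show i = oneIdx from Fin.ext h, se_one, orderOf_one] at ho
    omega
  · obtain ⟨c, hcr⟩ := fN_ex hc
    have e : se ⟨_, hj⟩ * c * zz = se i * se ⟨_, hj⟩ * c :=
      eq_of_rep (rep_mul (rep_mul (se_rep ⟨_, hj⟩) hcr) rzz) (rep_mul (rep_mul (se_rep i) (se_rep ⟨_, hj⟩)) hcr) he
    exact isConj_iff.2 ⟨se ⟨_, hj⟩ * c, by rw [e]; group⟩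

/-! ### The order of the centraliser -/

/-- The centraliser. -/
noncomputable def CZ : Subgroup gP := Subgroup.centralizer {zz}

theorem mem_CZ {c : gP} : c ∈ CZ ↔ c * zz = zz * c := Subgroup.mem_centralizer_singleton_iff

/-- The centraliser among the automorphisms of the graph, fixing some points. -/
noncomputable def CAut (pre : List ℕ) : Subgroup (Perm (Fin 275)) where
  carrier := {σ | σ ∈ gAll ∧ Commute σ (zz : Perm (Fin 275)) ∧ ∀ q : Fin 275, q.val ∈ pre → σ q = q}
  one_mem' := ⟨one_mem _, Commute.one_left _, fun _ _ => rfl⟩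
  mul_mem' {a b} ha hb := ⟨mul_mem ha.1 hb.1, ha.2.1.mul_left hb.2.1, fun q hq => by
    rw [Perm.mul_apply, hb.2.2 q hq, ha.2.2 q hq]⟩
  inv_mem' {a} ha := ⟨inv_mem ha.1, ha.2.1.inv_left, fun q hq => by
    rw [Perm.inv_eq_iff_eq, ha.2.2 q hq]⟩

theorem card_CAut_le : ∀ (B pre : List ℕ), (∀ r ∈ B, r < 275) → (∀ r ∈ pre, r < 275) →
    (∀ σ : Perm (Fin 275), σ ∈ CAut (B.reverse ++ pre) → σ = 1) →
    Nat.card (CAut pre) ≤ candProd (sN zPos) B pre
  | [], pre, _, _, h1 => by
    rw [candProd, show CAut pre = ⊥ from (Subgroup.eq_bot_iff_forall _).2 fun σ hσ => h1 σ (by simpa using hσ),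
      Subgroup.card_bot]
  | r :: B, pre, hB, hpre, h1 => by
    have hr : r < 275 := hB r List.mem_cons_self
    rw [candProd, card_eq_orbit]
    refine Nat.mul_le_mul ?_ ?_
    · have hsub : Fin.val '' (MulAction.orbit (CAut pre) (⟨r, hr⟩ : Fin 275)) ⊆
          ↑((List.range 275).filter fun t => okT (sN zPos) 2 r t pre pre).toFinset := by
        rintro _ ⟨_, ⟨⟨σ, hσ⟩, rfl⟩, rfl⟩
        show (σ ⟨r, hr⟩).val ∈ _
        let S : List (Fin 275) := pre.pmap (fun q hq => ⟨q, hq⟩) hpre
        have hS : S.map Fin.val = pre := by simp [S, List.map_pmap]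
        have hS2 : S.map (fun q => (σ q).val) = pre := by
          conv_rhs => rw [← hS]
          refine List.map_congr_left fun q hq => ?_
          obtain ⟨a, ha, rfl⟩ := List.mem_pmap.1 hq
          rw [hσ.2.2 ⟨a, _⟩ ha]
        have hm := mem_enumT (p := 2) rzz hσ.1 hσ.2.1 (⟨r, hr⟩ :: S)
        simp only [List.map_cons, enumT, hS, hS2, List.mem_flatMap, List.mem_map, List.mem_filter] at hm
        obtain ⟨pre', -, t, ⟨ht, hok⟩, e⟩ := hm
        rw [List.cons.injEq] at e
        obtain ⟨rfl, rfl⟩ := e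
        rw [List.coe_toFinset]
        exact List.mem_filter.2 ⟨ht, hok⟩
      have := Set.ncard_le_ncard hsub
      rw [Set.ncard_image_of_injective _ Fin.val_injective, Set.ncard_coe_finset] at this
      exact this.trans (List.toFinset_card_le _)
    · have e : Nat.card ↥(CAut pre ⊓ stabilizer (Perm (Fin 275)) (⟨r, hr⟩ : Fin 275)) = Nat.card (CAut (r :: pre)) := by
        congr 2
        congr 1
        ext σ
        constructor
        · rintro ⟨⟨a, b, c⟩, d⟩
          refine ⟨a, b, fun q hq => ?_⟩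
          rcases List.mem_cons.1 hq with e | e
          · rw [show q = ⟨r, hr⟩ from Fin.ext e]; exact d
          · exact c q e
        · rintro ⟨a, b, c⟩
          exact ⟨⟨a, b, fun q hq => c q (List.mem_cons_of_mem _ hq)⟩, c _ List.mem_cons_self⟩
      rw [e]
      refine card_CAut_le B (r :: pre) (fun x hx => hB x (List.mem_cons_of_mem _ hx)) ?_ ?_
      · intro x hx
        rcases List.mem_cons.1 hx with rfl | hx
        exacts [hr, hpre x hx]
      · intro σ hσ
        refine h1 σ ?_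
        simpa using hσ
where
  card_eq_orbit {H : Subgroup (Perm (Fin 275))} {x : Fin 275} :
      Nat.card H = (MulAction.orbit H x).ncard * Nat.card ↥(H ⊓ stabilizer (Perm (Fin 275)) x) := by
    rw [← (stabilizer H x).card_mul_index, index_stabilizer, mul_comm]
    congr 1
    exact Nat.card_congr
      { toFun := fun g => ⟨g.1.1, g.1.2, g.2⟩
        invFun := fun g => ⟨⟨g.1, g.2.1⟩, g.2.2⟩
        left_inv := fun _ => rfl
        right_inv := fun _ => rfl }

theorem gT_not : gT ∉ gP := fun h => by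
  have := not_killed ⟨gT, h⟩ rT
  rw [chk_commC.2.2.2.2] at this
  exact Bool.false_ne_true this.symm

theorem card_CZ_le : Nat.card CZ ≤ 40320 := by
  have hB : ∀ r ∈ baseC, r < 275 := fun r hr => of_decide_eq_true (List.all_eq_true.1 chk_ptsC.2 r hr)
  have h := card_CAut_le baseC [] hB (by simp) fun σ hσ => eq_of_base rzz hσ.1 (one_mem _) hσ.2.1
    (Commute.one_left _) chk_ptsC chk_sepC fun r hr => hσ.2.2 r (by simpa using hr)
  rw [chk_ub] at h
  let H : Subgroup (Perm (Fin 275)) := CZ.map gP.subtype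
  have hH : H ≤ CAut [] := by
    rintro _ ⟨c, hc, rfl⟩
    exact ⟨gP_le c.2, congrArg Subtype.val (mem_CZ.1 hc), by simp⟩
  have e : Nat.card H = Nat.card CZ := (Nat.card_congr (Subgroup.equivMapOfInjective _ _ gP.subtype_injective).toEquiv).symm
  have hT : gT ∈ CAut [] := ⟨mem_gAll rT chk_aut.2.2, rep_ext (rep_mul rT rzz) (rep_mul rzz rT) chk_commC.2.2.1, by simp⟩
  have hne : H ≠ CAut [] := fun e => by
    obtain ⟨c, -, hc⟩ := e ▸ hT
    exact gT_not (hc ▸ c.2)
  have hlt : H.relIndex (CAut []) ≠ 1 := fun h1 => hne (le_antisymm hH (Subgroup.relIndex_eq_one.1 h1))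
  have hm := Subgroup.card_mul_index (H.subgroupOf (CAut []))
  rw [Nat.card_congr (Subgroup.subgroupOfEquivOfLe hH).toEquiv, ← Subgroup.relIndex] at hm
  have h0 : H.relIndex (CAut []) ≠ 0 := fun h0 => by
    rw [h0, Nat.mul_zero] at hm
    exact Nat.card_pos.ne hm
  have h2 : 2 ≤ H.relIndex (CAut []) := by omega
  have := Nat.mul_le_mul_left (Nat.card H) h2
  omega

theorem cA_mem : cA ∈ CZ := mem_CZ.2 (eq_of_rep (rep_mul rcA rzz) (rep_mul rzz rcA) chk_commC.1)
theorem cB_mem : cB ∈ CZ := mem_CZ.2 (eq_of_rep (rep_mul rcB rzz) (rep_mul rzz rcB) chk_commC.2.1)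
theorem cV_mem : cV ∈ CZ := mem_CZ.2 (by rw [← cV_sq, mul_assoc])

theorem tree_card (H : Subgroup (Perm (Fin 275))) (x : Fin 275) (gs : List ℕ)
    (hgs : ∀ g ∈ gs, ∃ σ ∈ H, Rep (dN g) σ) :
    ∀ (tr : List (ℕ × ℕ × ℕ)) (seen : ℕ) (T : Finset (Fin 275)), orbTreeOk tr gs seen = true →
      (∀ i, seen.testBit i = true ↔ ∃ t ∈ T, t.val = i) → (↑T ⊆ MulAction.orbit H x) →
      T.card + tr.length ≤ (MulAction.orbit H x).ncard
  | [], _, T, _, _, hsub => by
    rw [List.length_nil, Nat.add_zero, ← Set.ncard_coe_finset]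
    exact Set.ncard_le_ncard hsub
  | (g, p, q) :: r, seen, T, hok, hbit, hsub => by
    simp only [orbTreeOk, Bool.and_eq_true, Bool.not_eq_true', beq_iff_eq, List.elem_iff] at hok
    obtain ⟨⟨⟨⟨hg, hp⟩, hq⟩, himg⟩, hrest⟩ := hok
    obtain ⟨t, ht, rfl⟩ := (hbit p).1 hp
    obtain ⟨σ, hσ, hr⟩ := hgs g hg
    have hv : (σ t).val = q := by rw [hr]; exact himg
    have hnew : σ t ∉ T := fun hm => by
      have := (hbit q).2 ⟨_, hm, hv⟩
      simp [hq] at this
    classical
    have := tree_card H x gs hgs r (seen ||| 1 <<< q) (insert (σ t) T) hrest (fun i => ?_) ?_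
    · rw [Finset.card_insert_of_notMem hnew] at this
      rw [List.length_cons]
      omega
    · rw [Nat.testBit_lor, Nat.one_shiftLeft, Nat.testBit_two_pow, Bool.or_eq_true, decide_eq_true_eq, hbit]
      constructor
      · rintro (⟨s, hs, e⟩ | e)
        · exact ⟨s, Finset.mem_insert_of_mem hs, e⟩
        · exact ⟨σ t, Finset.mem_insert_self _ _, hv.trans e⟩
      · rintro ⟨s, hs, e⟩
        rcases Finset.mem_insert.1 hs with rfl | hs
        · exact Or.inr (hv.symm.trans e)
        · exact Or.inl ⟨s, hs, e⟩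
    · rw [Finset.coe_insert]
      refine Set.insert_subset_iff.2 ⟨?_, hsub⟩
      exact MulAction.mem_orbit_of_mem_orbit (⟨σ, hσ⟩ : H) (hsub ht)

theorem card_ge_C : ∀ (lv : List (ℕ × List ℕ × List (ℕ × ℕ × ℕ))) (pre : List ℕ) (H : Subgroup (Perm (Fin 275))),
    levOkC lv pre = true →
    (∀ i < eltsC.length, (∀ q ∈ pre, tabN (dN i) q = q) → ∃ σ ∈ H, Rep (dN i) σ) →
    (lv.map fun l => l.2.2.length + 1).prod ≤ Nat.card H
  | [], _, H, _, _ => by rw [List.map_nil, List.prod_nil]; exact Nat.card_pos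
  | (x, gs, tr) :: rest, pre, H, hok, hmem => by
    simp only [levOkC, Bool.and_eq_true, decide_eq_true_eq, List.all_eq_true, beq_iff_eq] at hok
    obtain ⟨⟨⟨hx, hg⟩, htr⟩, hrest⟩ := hok
    rw [List.map_cons, List.prod_cons, card_CAut_le.card_eq_orbit (H := H) (x := ⟨x, hx⟩)]
    refine Nat.mul_le_mul ?_ (card_ge_C rest (x :: pre) _ hrest fun i hi hfix => ?_)
    · have h := tree_card H ⟨x, hx⟩ gs (fun g hgm => hmem g (hg g hgm).1 (hg g hgm).2) tr (1 <<< x) {⟨x, hx⟩}
        htr (fun i => ?_) ?_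
      · rw [Finset.card_singleton] at h
        show tr.length + 1 ≤ _
        omega
      · rw [Nat.one_shiftLeft, Nat.testBit_two_pow]
        simp
      · rw [Finset.coe_singleton, Set.singleton_subset_iff]
        exact MulAction.mem_orbit_self _
    · obtain ⟨σ, hσ, hr⟩ := hmem i hi fun q hq => hfix q (List.mem_cons_of_mem _ hq)
      refine ⟨σ, ⟨hσ, Fin.ext ?_⟩, hr⟩
      show (σ ⟨x, hx⟩).val = x
      rw [hr]; exact hfix x List.mem_cons_self

theorem closure_eq : Subgroup.closure ({cA, cB} : Set gP) = CZ := by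
  haveI : Finite gP := Finite.of_injective _ Subtype.val_injective
  have hle : Subgroup.closure ({cA, cB} : Set gP) ≤ CZ :=
    (Subgroup.closure_le _).2 (by rintro x (rfl | rfl); exacts [cA_mem, cB_mem])
  refine Subgroup.eq_of_le_of_card_ge hle (card_CZ_le.trans ?_)
  rw [← chk_levC.2, Nat.card_congr (Subgroup.equivMapOfInjective _ _ gP.subtype_injective).toEquiv]
  refine card_ge_C levelsC [] _ chk_levC.1 fun i hi _ => ?_
  obtain ⟨σ, hσ, hr⟩ := slp_mem chk_progC (Subgroup.closure ({cA, cB} : Set gP))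
    ⟨cA, Subgroup.subset_closure (by simp), rcA⟩ ⟨cB, Subgroup.subset_closure (by simp), rcB⟩ i hi
  exact ⟨_, ⟨σ, hσ, rfl⟩, hr⟩

theorem card_CZ : Nat.card CZ = 40320 := by
  haveI : Finite gP := Finite.of_injective _ Subtype.val_injective
  refine le_antisymm card_CZ_le ?_
  rw [← closure_eq, ← chk_levC.2, Nat.card_congr (Subgroup.equivMapOfInjective _ _ gP.subtype_injective).toEquiv]
  refine card_ge_C levelsC [] _ chk_levC.1 fun i hi _ => ?_
  obtain ⟨σ, hσ, hr⟩ := slp_mem chk_progC (Subgroup.closure ({cA, cB} : Set gP))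
    ⟨cA, Subgroup.subset_closure (by simp), rcA⟩ ⟨cB, Subgroup.subset_closure (by simp), rcB⟩ i hi
  exact ⟨_, ⟨σ, hσ, rfl⟩, hr⟩

/-! ### The action on eight objects -/

/-- A set of fixed points attached to a pair. -/
def InPair (a b : Fin 8) (x : Fin 275) : Prop := (pairN a.val b.val).testBit x.val = true

/-- The element `g` induces `s` on the eight objects. -/
def Induces (g : Perm (Fin 275)) (s : Perm (Fin 8)) : Prop :=
  ∀ a b : Fin 8, a ≠ b → ∀ x : Fin 275, InPair a b x ↔ InPair (s a) (s b) (g x)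

theorem induces_mul {g h : Perm (Fin 275)} {s t : Perm (Fin 8)} (hg : Induces g s) (hh : Induces h t) :
    Induces (g * h) (s * t) := fun a b hab x =>
  (hh a b hab x).trans (hg (t a) (t b) (t.injective.ne hab) (h x))

theorem induces_inv {g : Perm (Fin 275)} {s : Perm (Fin 8)} (hg : Induces g s) : Induces g⁻¹ s⁻¹ := fun a b hab x => by
  have := hg (s⁻¹ a) (s⁻¹ b) (s⁻¹.injective.ne hab) (g⁻¹ x)
  simp only [Perm.inv_def, Equiv.apply_symm_apply] at this ⊢
  exact this.symm

theorem three_points : ∀ a : Fin 8, ∃ b c : Fin 8, b ≠ a ∧ c ≠ a ∧ b ≠ c := by decide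

theorem induces_unique {g : Perm (Fin 275)} {s t : Perm (Fin 8)} (hs : Induces g s) (ht : Induces g t) : s = t := by
  have key : ∀ a b : Fin 8, a ≠ b → (s a = t a ∧ s b = t b) ∨ (s a = t b ∧ s b = t a) := fun a b hab => by
    have e : pairN (s a).val (s b).val = pairN (t a).val (t b).val := by
      refine Nat.eq_of_testBit_eq fun i => ?_
      by_cases hi : i < 275
      · have h1 := hs a b hab (g⁻¹ ⟨i, hi⟩)
        have h2 := ht a b hab (g⁻¹ ⟨i, hi⟩)
        simp only [Perm.inv_def, Equiv.apply_symm_apply] at h1 h2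
        exact Bool.eq_iff_iff.2 (h1.symm.trans h2)
      · have hb : ∀ c d : Fin 8, (pairN c.val d.val).testBit i = false := fun c d =>
          Nat.testBit_lt_two_pow ((of_decide_eq_true (allLt_spec (allLt_spec chk_pairs.2 c.isLt) d.isLt)).trans_le
            (Nat.pow_le_pow_right (by norm_num) (by omega)))
        rw [hb, hb]
    have := allLt_spec (allLt_spec (allLt_spec (allLt_spec chk_pairs.1 (s a).isLt) (s b).isLt) (t a).isLt) (t b).isLt
    simp only [Bool.or_eq_true, Bool.and_eq_true, beq_iff_eq, bne_iff_ne, Fin.val_inj] at this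
    rcases this with (((h | h) | h) | h) | h
    · exact absurd (s.injective h) hab
    · exact absurd (t.injective h) hab
    · exact absurd e h
    · exact Or.inl h
    · exact Or.inr h
  refine Equiv.ext fun a => ?_
  by_contra hne
  have two : ∀ b : Fin 8, b ≠ a → s a = t b := fun b hb => by
    rcases key a b (Ne.symm hb) with h | h
    · exact absurd h.1 hne
    · exact h.1
  obtain ⟨b, c, hb, hc, hbc⟩ := three_points a
  exact hbc (t.injective ((two b hb).symm.trans (two c hc)))

/-- The permutation of the first generator. -/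
def sA : Perm (Fin 8) where
  toFun a := Fin.ofNat 8 (sigC1.getD a.val 0)
  invFun a := Fin.ofNat 8 (sigC1.idxOf a.val)
  left_inv := show ∀ a : Fin 8, Fin.ofNat 8 (sigC1.idxOf (Fin.ofNat 8 (sigC1.getD a.val 0)).val) = a by decide +kernel
  right_inv := show ∀ a : Fin 8, Fin.ofNat 8 (sigC1.getD (Fin.ofNat 8 (sigC1.idxOf a.val)).val 0) = a by decide +kernel
/-- The permutation of the second generator. -/
def sB : Perm (Fin 8) where
  toFun a := Fin.ofNat 8 (sigC2.getD a.val 0)
  invFun a := Fin.ofNat 8 (sigC2.idxOf a.val)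
  left_inv := show ∀ a : Fin 8, Fin.ofNat 8 (sigC2.idxOf (Fin.ofNat 8 (sigC2.getD a.val 0)).val) = a by decide +kernel
  right_inv := show ∀ a : Fin 8, Fin.ofNat 8 (sigC2.getD (Fin.ofNat 8 (sigC2.idxOf a.val)).val 0) = a by decide +kernel

theorem induces_of {t : ℕ} {g : Perm (Fin 275)} (hr : Rep t g) {s : Perm (Fin 8)} {l : List ℕ}
    (h : mapsOk t l = true) (hl : ∀ a : Fin 8, (s a).val = l.getD a.val 0) : Induces g s := fun a b hab x => by
  have := allLt_spec (allLt_spec h a.isLt) b.isLt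
  simp only [Bool.and_eq_true, Bool.or_eq_true, decide_eq_true_eq, beq_iff_eq] at this
  rcases this.2 with e | e
  · exact absurd (Fin.ext e) hab
  · have e2 := beq_iff_eq.1 (allLt_spec e x.isLt)
    rw [InPair, InPair, hl, hl, hr, e2]

theorem sA_val : ∀ a : Fin 8, (sA a).val = sigC1.getD a.val 0 := by decide +kernel
theorem sB_val : ∀ a : Fin 8, (sB a).val = sigC2.getD a.val 0 := by decide +kernel

theorem exists_induced (g : CZ) : ∃ s, Induces ((g : gP) : Perm (Fin 275)) s ∧ Perm.sign s = 1 := by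
  suffices key : ∀ x ∈ Subgroup.closure ({cA, cB} : Set gP), ∃ s, Induces ((x : gP) : Perm (Fin 275)) s ∧ Perm.sign s = 1 from
    key _ (by rw [closure_eq]; exact g.2)
  intro x hg
  induction hg using Subgroup.closure_induction with
  | mem x hx =>
    rcases hx with rfl | rfl
    · exact ⟨sA, induces_of rcA chk_maps.1 sA_val, by decide +kernel⟩
    · exact ⟨sB, induces_of rcB chk_maps.2 sB_val, by decide +kernel⟩
  | one => exact ⟨1, fun a b _ x => Iff.rfl, map_one _⟩
  | mul x y _ _ hx hy =>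
    obtain ⟨s, hs, hs'⟩ := hx
    obtain ⟨t, ht, ht'⟩ := hy
    exact ⟨s * t, induces_mul hs ht, by rw [map_mul, hs', ht', one_mul]⟩
  | inv x _ hx =>
    obtain ⟨s, hs, hs'⟩ := hx
    exact ⟨s⁻¹, induces_inv hs, by rw [map_inv, hs', inv_one]⟩

/-- The map onto the alternating group. -/
noncomputable def theta : CZ →* alternatingGroup (Fin 8) :=
  MonoidHom.mk' (fun g => ⟨(exists_induced g).choose, (exists_induced g).choose_spec.2⟩) fun g h =>
    Subtype.ext (induces_unique (exists_induced (g * h)).choose_spec.1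
      (induces_mul (exists_induced g).choose_spec.1 (exists_induced h).choose_spec.1))

theorem ker_cases {g : CZ} (h : theta g = 1) : (g : gP) = 1 ∨ (g : gP) = zz := by
  set c : Perm (Fin 275) := ((g : gP) : Perm (Fin 275)) with hc
  have hi : Induces c 1 := by
    have := (exists_induced g).choose_spec.1
    rwa [show (exists_induced g).choose = 1 from congrArg Subtype.val h] at this
  have hcomm : Commute c (zz : Perm (Fin 275)) := congrArg Subtype.val (mem_CZ.1 g.2)
  have hfix : ∀ x : Fin 275, x.val ∈ fixZ → c x = x := fun x hx => by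
    by_contra hne
    have := allLt_spec (List.all_eq_true.1 chk_points.1 x.val hx) (c x).isLt
    simp only [Bool.or_eq_true, Bool.and_eq_true, beq_iff_eq, bne_iff_ne, List.any_eq_true, List.mem_range] at this
    rcases this with e | ⟨a, ha, b, hb, hab, hne2⟩
    · exact hne (Fin.ext e).symm
    · have := hi ⟨a, ha⟩ ⟨b, hb⟩ (fun e => hab (congrArg Fin.val e)) x
      exact hne2 (Bool.eq_iff_iff.2 this)
  have stage : ∀ (d : Perm (Fin 275)), d ∈ gAll → ∀ l : List ℕ, (∀ u ∈ l, ∃ w : Fin 275, w.val = u ∧ d w = w) →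
      ∀ v : Fin 275, sigN l (d v).val = sigN l v.val := by
    intro d hd l
    induction l with
    | nil => exact fun _ _ => rfl
    | cons u l ih =>
      intro hl v
      obtain ⟨w, rfl, hw⟩ := hl u List.mem_cons_self
      have h1 : adjN w.val (d v).val = adjN w.val v.val := by conv_lhs => rw [← hw]; exact hd w v
      have h2 : (w.val == (d v).val) = (w.val == v.val) := by
        rw [Bool.eq_iff_iff, beq_iff_eq, beq_iff_eq, Fin.val_inj, Fin.val_inj]
        conv_lhs => rw [← hw]
        exact d.injective.eq_iff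
      show (_ + _) + 4 * sigN l (d v).val = _
      rw [h1, h2, ih (fun x hx => hl x (List.mem_cons_of_mem _ hx)) v]
      rfl
  have hz : ∀ x : Fin 275, x.val ∈ fixZ → (zz : Perm (Fin 275)) x = x := fun x hx => Fin.ext (by
    rw [rzz]
    have := allLt_spec chk_points.2 x.isLt
    rw [beq_iff_eq, List.elem_iff.2 hx, beq_iff_eq] at this
    exact this)
  have last : ∀ d : Perm (Fin 275), d ∈ gAll → Commute d (zz : Perm (Fin 275)) →
      (∀ x : Fin 275, x.val ∈ fixZ → d x = x) → d ⟨freePt, chk_ids.2.2.2.2⟩ = ⟨freePt, chk_ids.2.2.2.2⟩ → d = 1 := by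
    intro d hd hdz hdf hd1
    have hlt : ∀ u ∈ fixZ, u < 275 := fun u hu => of_decide_eq_true (List.all_eq_true.1 chk_ids.2.2.2.1 u hu)
    have h2 : ∀ u ∈ fixZ ++ [freePt, tabN (sN zPos) freePt], ∃ w : Fin 275, w.val = u ∧ d w = w := by
      intro u hu
      rcases List.mem_append.1 hu with hu | hu
      · exact ⟨⟨u, hlt u hu⟩, rfl, hdf _ hu⟩
      · simp only [List.mem_cons, List.not_mem_nil, or_false] at hu
        rcases hu with rfl | rfl
        · exact ⟨_, rfl, hd1⟩
        · refine ⟨(zz : Perm (Fin 275)) ⟨freePt, chk_ids.2.2.2.2⟩, rzz _, ?_⟩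
          rw [← Perm.mul_apply, hdz.eq, Perm.mul_apply, hd1]
    have h3 : ∀ u ∈ fixZ ++ [freePt, tabN (sN zPos) freePt] ++ kerExtra, ∃ w : Fin 275, w.val = u ∧ d w = w := by
      intro u hu
      rcases List.mem_append.1 hu with hu | hu
      · exact h2 u hu
      · have h := List.all_eq_true.1 chk_extra u hu
        simp only [Bool.and_eq_true, decide_eq_true_eq] at h
        refine ⟨⟨u, h.1⟩, rfl, ?_⟩
        have := allLt_spec h.2 (d ⟨u, h.1⟩).isLt
        simp only [Bool.or_eq_true, beq_iff_eq, bne_iff_ne] at this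
        rcases this with e | e
        · exact Fin.ext e
        · exact absurd (stage d hd _ h2 ⟨u, h.1⟩) e
    exact Equiv.ext fun v => sig_injective chk_sepK (stage d hd _ h3 v)
  have hf := allLt_spec chk_free (c ⟨freePt, chk_ids.2.2.2.2⟩).isLt
  simp only [Bool.or_eq_true, beq_iff_eq, bne_iff_ne] at hf
  rcases hf with (e | e) | e
  · left
    exact Subtype.ext (last c (gP_le (g : gP).2) hcomm hfix (Fin.ext e))
  · right
    have e2 : (zz : Perm (Fin 275))⁻¹ * c = 1 := by
      refine last _ (mul_mem (inv_mem (gP_le zz.2)) (gP_le (g : gP).2)) ((Commute.refl _).inv_left.mul_left hcomm)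
        (fun x hx => ?_) ?_
      · rw [Perm.mul_apply, hfix x hx, Perm.inv_eq_iff_eq, hz x hx]
      · rw [Perm.mul_apply, Perm.inv_eq_iff_eq]
        exact Fin.ext (by rw [rzz, e])
    exact Subtype.ext (inv_mul_eq_one.1 e2).symm
  · refine absurd (stage c (gP_le (g : gP).2) fixZ (fun u hu => ?_) ⟨freePt, chk_ids.2.2.2.2⟩) e
    exact ⟨⟨u, of_decide_eq_true (List.all_eq_true.1 chk_ids.2.2.2.1 u hu)⟩, rfl, hfix _ hu⟩

/-- The involution inside its centraliser. -/
noncomputable def zC : CZ := ⟨zz, mem_CZ.2 rfl⟩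

theorem theta_zC : theta zC = 1 := by
  refine Subtype.ext (induces_unique (exists_induced zC).choose_spec.1 fun a b _ x => ?_)
  show InPair a b x ↔ InPair a b ((zz : Perm (Fin 275)) x)
  have hb : (allLt 8 fun a => allLt 8 fun b => allLt 275 fun x =>
      (pairN a b).testBit x == (pairN a b).testBit (tabN (sN zPos) x)) = true := by decide +kernel
  have := beq_iff_eq.1 (allLt_spec (allLt_spec (allLt_spec hb a.isLt) b.isLt) x.isLt)
  rw [InPair, InPair, rzz, this]

theorem ker_eq : theta.ker = Subgroup.zpowers zC := by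
  refine le_antisymm (fun g hg => ?_) (Subgroup.zpowers_le.2 theta_zC)
  rcases ker_cases hg with h | h
  · rw [show g = 1 from Subtype.ext h]; exact one_mem _
  · rw [show g = zC from Subtype.ext h]; exact Subgroup.mem_zpowers _

theorem orderOf_zC : orderOf zC = 2 :=
  (orderOf_injective CZ.subtype CZ.subtype_injective zC).symm.trans orderOf_zz

theorem card_alt8 : Nat.card (alternatingGroup (Fin 8)) = 20160 := by
  have := nat_card_alternatingGroup (α := Fin 8)
  simpa [Nat.card_fin, Nat.factorial] using this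

theorem theta_surjective : Function.Surjective theta := by
  rw [← MonoidHom.range_eq_top]
  refine Subgroup.eq_top_of_card_eq _ (le_antisymm (Subgroup.card_le_card_group _) ?_)
  have h := theta.ker.card_mul_index
  rw [Subgroup.index_ker, ker_eq, Nat.card_zpowers, orderOf_zC, card_CZ] at h
  rw [card_alt8]
  omega

theorem center_eq : Subgroup.center CZ = theta.ker := by
  rw [ker_eq]
  refine le_antisymm (fun g hg => ?_) (Subgroup.zpowers_le.2 (Subgroup.mem_center_iff.2 fun h =>
    Subtype.ext (mem_CZ.1 h.2)))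
  rw [← ker_eq, MonoidHom.mem_ker]
  have hm : theta g ∈ Subgroup.center (alternatingGroup (Fin 8)) := Subgroup.mem_center_iff.2 fun a => by
    obtain ⟨h, rfl⟩ := theta_surjective a
    rw [← map_mul, ← map_mul, Subgroup.mem_center_iff.1 hg h]
  haveI : IsSimpleGroup (alternatingGroup (Fin 8)) := alternatingGroup.isSimpleGroup (by simp)
  rcases IsSimpleGroup.eq_bot_or_eq_top_of_normal (Subgroup.center (alternatingGroup (Fin 8))) inferInstance with h | h
  · rwa [h, Subgroup.mem_bot] at hm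
  · exfalso
    have h1 : (⟨sA, by rw [Perm.mem_alternatingGroup]; decide +kernel⟩ : alternatingGroup (Fin 8)) *
        ⟨sB, by rw [Perm.mem_alternatingGroup]; decide +kernel⟩ =
        ⟨sB, by rw [Perm.mem_alternatingGroup]; decide +kernel⟩ *
        ⟨sA, by rw [Perm.mem_alternatingGroup]; decide +kernel⟩ :=
      Subgroup.mem_center_iff.1 (h ▸ Subgroup.mem_top _) _
    have h2 : sA * sB = sB * sA := congrArg Subtype.val h1
    revert h2
    decide +kernel

theorem cover_CZ : Cfsg.IsNonsplitDoubleCover CZ (alternatingGroup (Fin 8)) := by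
  refine ⟨by rw [center_eq, ker_eq, Nat.card_zpowers, orderOf_zC],
    ⟨(QuotientGroup.quotientMulEquivOfEq center_eq).trans
      (QuotientGroup.quotientKerEquivOfSurjective theta theta_surjective)⟩, fun L hL => ?_⟩
  obtain ⟨⟨⟨a, ha⟩, ⟨l, hl⟩⟩, he⟩ := hL.2 (⟨cV, cV_mem⟩ : CZ)
  have he' : a * l = ⟨cV, cV_mem⟩ := he
  have hac := Subgroup.mem_center_iff.1 ha l
  have hz2 : a * a = 1 := by
    have h2 : a ∈ Subgroup.zpowers zC := ker_eq ▸ center_eq ▸ ha
    obtain ⟨i, rfl⟩ := Subgroup.mem_zpowers_iff.1 h2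
    have : zC * zC = 1 := Subtype.ext zz_sq
    rw [← zpow_add, ← two_mul, zpow_mul, zpow_two, this, one_zpow]
  have hl2 : l * l = zC := by
    have : (⟨cV, cV_mem⟩ : CZ) * ⟨cV, cV_mem⟩ = zC := Subtype.ext cV_sq
    rw [← this, ← he']
    calc l * l = (a * a) * (l * l) := by rw [hz2, one_mul]
      _ = a * (a * l) * l := by group
      _ = a * (l * a) * l := by rw [hac]
      _ = a * l * (a * l) := by group
  have hz : zC ∈ Subgroup.center CZ := by rw [center_eq]; exact theta_zC
  have := hL.1 (a₁ := (⟨zC, hz⟩, ⟨1, one_mem L⟩)) (a₂ := (⟨1, one_mem _⟩, ⟨zC, hl2 ▸ mul_mem hl hl⟩))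
    (show zC * 1 = 1 * zC by rw [mul_one, one_mul])
  have h3 : zC = 1 := congrArg (fun p => (p.1 : CZ)) this
  exact zz_ne (congrArg Subtype.val h3)

theorem main_gP : (∀ x y : gP, orderOf x = 2 → orderOf y = 2 → IsConj x y) ∧
    ∃ t : gP, orderOf t = 2 ∧ Cfsg.IsNonsplitDoubleCover ↥(Subgroup.centralizer ({t} : Set gP)) ↥(alternatingGroup (Fin 8)) :=
  ⟨fun _ _ hx hy => (conj_zz hx).symm.trans (conj_zz hy), zz, orderOf_zz, cover_CZ⟩

theorem mcl_involution_centralizer : (∀ x y : ↥Cfsg.Spor.McL, orderOf x = 2 → orderOf y = 2 → IsConj x y) ∧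
    ∃ t : ↥Cfsg.Spor.McL, orderOf t = 2 ∧
      Cfsg.IsNonsplitDoubleCover ↥(Subgroup.centralizer ({t} : Set ↥Cfsg.Spor.McL)) ↥(alternatingGroup (Fin 8)) := by
  refine ⟨fun x y hx hy => ?_, mclEquiv.symm zz, by rw [MulEquiv.orderOf_eq, orderOf_zz], ?_⟩
  · have h : IsConj (mclEquiv x) (mclEquiv y) := main_gP.1 _ _ (by rw [MulEquiv.orderOf_eq, hx]) (by rw [MulEquiv.orderOf_eq, hy])
    have h2 := mclEquiv.symm.toMonoidHom.map_isConj h
    simpa using h2
  · let C := Subgroup.centralizer ({mclEquiv.symm zz} : Set ↥Cfsg.Spor.McL)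
    have e : C.map mclEquiv.toMonoidHom = CZ := by
      ext g
      constructor
      · rintro ⟨x, hx, rfl⟩
        have h := congrArg mclEquiv (Subgroup.mem_centralizer_singleton_iff.1 hx)
        rw [map_mul, map_mul, MulEquiv.apply_symm_apply] at h
        exact mem_CZ.2 h
      · intro hg
        refine ⟨mclEquiv.symm g, Subgroup.mem_centralizer_singleton_iff.2 ?_, mclEquiv.apply_symm_apply g⟩
        rw [← map_mul, ← map_mul, mem_CZ.1 hg]
    let f : C ≃* CZ := (C.equivMapOfInjective _ mclEquiv.injective).trans (MulEquiv.subgroupCongr e)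
    obtain ⟨h1, ⟨h2⟩, h3⟩ := cover_CZ
    have hc : (Subgroup.center C).map f.toMonoidHom = Subgroup.center CZ := by
      ext g
      constructor
      · rintro ⟨x, hx, rfl⟩
        refine Subgroup.mem_center_iff.2 fun h => ?_
        obtain ⟨h, rfl⟩ := f.surjective h
        show f h * f x = f x * f h
        rw [← map_mul, ← map_mul, Subgroup.mem_center_iff.1 hx h]
      · intro hg
        refine ⟨f.symm g, Subgroup.mem_center_iff.2 fun h => f.injective ?_, f.apply_symm_apply g⟩
        rw [map_mul, map_mul, MulEquiv.apply_symm_apply]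
        exact Subgroup.mem_center_iff.1 hg _
    refine ⟨?_, ⟨(QuotientGroup.congr (Subgroup.center C) (Subgroup.center CZ) f hc).trans h2⟩, fun L hL => ?_⟩
    · rw [Nat.card_congr ((Subgroup.center C).equivMapOfInjective f.toMonoidHom f.injective).toEquiv, hc, h1]
    · refine h3 (L.map f.toMonoidHom) ⟨fun p q h => ?_, fun g => ?_⟩
      · obtain ⟨⟨p1, hp1⟩, ⟨p2, x2, hx2, rfl⟩⟩ := p
        obtain ⟨⟨q1, hq1⟩, ⟨q2, y2, hy2, rfl⟩⟩ := q
        obtain ⟨x1, hx1, rfl⟩ := hc ▸ hp1
        obtain ⟨y1, hy1, rfl⟩ := hc ▸ hq1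
        have h' : f (x1 * x2) = f (y1 * y2) := by rw [map_mul, map_mul]; exact h
        have := hL.1 (a₁ := (⟨x1, hx1⟩, ⟨x2, hx2⟩)) (a₂ := (⟨y1, hy1⟩, ⟨y2, hy2⟩)) (f.injective h')
        simp only [Prod.mk.injEq, Subtype.mk.injEq] at this
        obtain ⟨rfl, rfl⟩ := this
        rfl
      · obtain ⟨x, rfl⟩ := f.surjective g
        obtain ⟨⟨⟨x1, hx1⟩, ⟨x2, hx2⟩⟩, e⟩ := hL.2 x
        exact ⟨(⟨f x1, hc ▸ ⟨x1, hx1, rfl⟩⟩, ⟨f x2, ⟨x2, hx2, rfl⟩⟩), by rw [← e]; exact (map_mul f x1 x2).symm⟩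

end CfsgLib.McLFus
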